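import Mathlib
import Cfsg.Agent.Lib.Helper4.Huppert
import Cfsg.Agent.Lib.Helper4.Basic

set_option autoImplicit false
open Cfsg
open scoped Pointwise

namespace Cfsg.Agent.Lib.Helper4

variable {X : Type*} [Group X]

/-- an element of the normalizer whose order is prime to `|Aut Q|` centralizes `Q`. -/
theorem mem_centralizer_of_coprime_card_mulAut {Q : Subgroup X} [Finite Q] {g : X}
    (hg : g ∈ Subgroup.normalizer (Q : Set X))
    (h : (orderOf g).Coprime (Nat.card (MulAut Q))) : g ∈ Subgroup.centralizer (Q : Set X) := by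
  have h1 : orderOf (Q.normalizerMonoidHom ⟨g, hg⟩) ∣ orderOf g := by
    have := orderOf_map_dvd Q.normalizerMonoidHom (⟨g, hg⟩ : Subgroup.normalizer (Q : Set X))
    rwa [Subgroup.orderOf_mk] at this
  have h2 : orderOf (Q.normalizerMonoidHom ⟨g, hg⟩) ∣ Nat.card (MulAut Q) := orderOf_dvd_natCard _
  have h3 := Nat.eq_one_of_dvd_coprimes h h1 h2
  rw [orderOf_eq_one_iff] at h3
  have h4 : (⟨g, hg⟩ : Subgroup.normalizer (Q : Set X)) ∈ Q.normalizerMonoidHom.ker := h3
  rw [Subgroup.normalizerMonoidHom_ker] at h4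
  exact h4

theorem odd_centralizes_cyclic_two {Q : Subgroup X} [IsCyclic Q] {k : ℕ} (hQ : Nat.card Q = 2 ^ k)
    {g : X} (hg : g ∈ Subgroup.normalizer (Q : Set X)) (hodd : (orderOf g).Coprime 2) :
    g ∈ Subgroup.centralizer (Q : Set X) := by
  have : Finite Q := Nat.finite_of_card_ne_zero (by rw [hQ]; positivity)
  apply mem_centralizer_of_coprime_card_mulAut hg
  rw [IsCyclic.card_mulAut, hQ]
  rcases Nat.eq_zero_or_pos k with rfl | hk
  · simp
  · rw [Nat.totient_prime_pow Nat.prime_two hk]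
    simpa using Nat.Coprime.pow_right (k - 1) hodd

/-- automizer generated by a `p`-subgroup -/
theorem mem_centralizer_of_normalizer_eq_sup {p : ℕ} {Q T : Subgroup X}
    (hT : IsPGroup p T) (hTN : T ≤ Subgroup.normalizer (Q : Set X))
    (hN : Subgroup.normalizer (Q : Set X) = Subgroup.centralizer (Q : Set X) ⊔ T) {g : X}
    (hg : g ∈ Subgroup.normalizer (Q : Set X)) (hgo : (orderOf g).Coprime p) :
    g ∈ Subgroup.centralizer (Q : Set X) := by
  set N := Subgroup.normalizer (Q : Set X) with hNdef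
  have hCN : Subgroup.centralizer (Q : Set X) ≤ N := Subgroup.centralizer_le_normalizer _
  have htop : (⊤ : Subgroup N) = (Subgroup.centralizer (Q : Set X)).subgroupOf N ⊔ T.subgroupOf N := by
    rw [← Subgroup.subgroupOf_sup hCN hTN, ← hN, Subgroup.subgroupOf_self]
  have hmem : Q.normalizerMonoidHom ⟨g, hg⟩ ∈ (T.subgroupOf N).map Q.normalizerMonoidHom := by
    have h1 : Q.normalizerMonoidHom ⟨g, hg⟩ ∈ (⊤ : Subgroup N).map Q.normalizerMonoidHom :=
      Subgroup.mem_map_of_mem _ (Subgroup.mem_top _)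
    rw [htop, Subgroup.map_sup, ← Subgroup.normalizerMonoidHom_ker,
      (Subgroup.map_eq_bot_iff _).mpr le_rfl, bot_sup_eq] at h1
    exact h1
  have hpg : IsPGroup p ((T.subgroupOf N).map Q.normalizerMonoidHom) := (hT.comap_subtype).map _
  obtain ⟨j, hj⟩ := hpg ⟨_, hmem⟩
  have hj' : (Q.normalizerMonoidHom ⟨g, hg⟩) ^ p ^ j = 1 := congrArg Subtype.val hj
  have h1 : orderOf (Q.normalizerMonoidHom ⟨g, hg⟩) ∣ orderOf g := by
    have := orderOf_map_dvd Q.normalizerMonoidHom (⟨g, hg⟩ : N)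
    rwa [Subgroup.orderOf_mk] at this
  have h3 := Nat.eq_one_of_dvd_coprimes (Nat.Coprime.pow_right j hgo) h1
    (orderOf_dvd_of_pow_eq_one hj')
  rw [orderOf_eq_one_iff] at h3
  have h4 : (⟨g, hg⟩ : N) ∈ Q.normalizerMonoidHom.ker := h3
  rw [Subgroup.normalizerMonoidHom_ker] at h4
  exact h4

/-- dihedral-like pair: `C` cyclic of index at most two in `S`, elements outside are involutions -/
structure DihLike (S C : Subgroup X) : Prop where
  le : C ≤ S
  cyc : IsCyclic C
  sq : ∀ x ∈ S, x ∉ C → x ^ 2 = 1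
  mul : ∀ x ∈ S, ∀ y ∈ S, x ∉ C → y ∉ C → x * y ∈ C

theorem dihLike_of_equiv (S : Subgroup X) (m : ℕ) [NeZero m] (e : S ≃* DihedralGroup m) :
    ∃ C : Subgroup X, DihLike S C := by
  set c : S := e.symm (DihedralGroup.r (1 : ZMod m)) with hc
  have hmem : ∀ x : S, (x : X) ∈ Subgroup.zpowers (c : X) ↔ ∃ i : ZMod m, e x = DihedralGroup.r i := by
    intro x
    constructor
    · intro hx
      obtain ⟨k, hk⟩ := Subgroup.mem_zpowers_iff.mp hx
      have hk' : c ^ k = x := Subtype.ext (by simpa using hk)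
      refine ⟨(k : ZMod m), ?_⟩
      rw [← hk', map_zpow, hc, MulEquiv.apply_symm_apply, DihedralGroup.r_one_zpow]
    · rintro ⟨i, hi⟩
      have hx : x = c ^ (i.val : ℤ) := by
        apply e.injective
        rw [map_zpow, hc, MulEquiv.apply_symm_apply, DihedralGroup.r_one_zpow, hi]
        simp
      rw [hx]
      simpa using Subgroup.zpow_mem _ (Subgroup.mem_zpowers (c : X)) (i.val : ℤ)
  have hcase : ∀ x : S, (x : X) ∉ Subgroup.zpowers (c : X) → ∃ i : ZMod m, e x = DihedralGroup.sr i := by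
    intro x hx
    rcases hex : e x with i | i
    · exact absurd ((hmem x).mpr ⟨i, hex⟩) hx
    · exact ⟨i, rfl⟩
  refine ⟨Subgroup.zpowers (c : X), Subgroup.zpowers_le.mpr c.2, inferInstance, ?_, ?_⟩
  · intro x hx hxC
    obtain ⟨i, hi⟩ := hcase ⟨x, hx⟩ hxC
    have h1 : (⟨x, hx⟩ : S) ^ 2 = 1 := by
      apply e.injective
      rw [map_pow, hi, map_one, pow_two, DihedralGroup.sr_mul_self]
    simpa using congrArg Subtype.val h1
  · intro x hx y hy hxC hyC
    obtain ⟨i, hi⟩ := hcase ⟨x, hx⟩ hxC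
    obtain ⟨j, hj⟩ := hcase ⟨y, hy⟩ hyC
    exact (hmem (⟨x, hx⟩ * ⟨y, hy⟩)).mpr ⟨j - i, by rw [map_mul, hi, hj, DihedralGroup.sr_mul_sr]⟩

end Cfsg.Agent.Lib.Helper4
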