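import Mathlib
import Cfsg.Agent.Lib.Helper4.Dih
import Cfsg.Agent.Lib.Helper1.CoprimeSylow

set_option autoImplicit false
open Cfsg
open scoped Pointwise

namespace Cfsg.Agent.Lib.Helper4

variable {X : Type*} [Group X]

namespace DihLike

variable {S C : Subgroup X}

theorem le_normalizer [Finite X] (h : DihLike S C) : S ≤ Subgroup.normalizer (C : Set X) := by
  intro x hx
  apply Cfsg.Agent.Lib.Helper1.mem_normalizer_of_conj_mem
  intro c hc
  by_cases hxC : x ∈ C
  · exact C.mul_mem (C.mul_mem hxC hc) (C.inv_mem hxC)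
  · apply h.mul _ (S.mul_mem hx (h.le hc)) _ (S.inv_mem hx)
    · intro h1
      apply hxC
      have := C.mul_mem h1 (C.inv_mem hc)
      simpa using this
    · intro h1
      exact hxC (by simpa using C.inv_mem h1)

/-- structure of a subgroup not inside `C` -/
theorem card_eq_two_mul [Finite X] (h : DihLike S C) {Q : Subgroup X} (hQ : Q ≤ S) {s : X} (hs : s ∈ Q)
    (hsC : s ∉ C) : (∀ x ∈ Q, x ∈ Q ⊓ C ∨ s * x ∈ Q ⊓ C) ∧
      Nat.card Q = 2 * Nat.card (Q ⊓ C : Subgroup X) := by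
  have hdec : ∀ x ∈ Q, x ∈ Q ⊓ C ∨ s * x ∈ Q ⊓ C := by
    intro x hx
    by_cases hxC : x ∈ C
    · exact Or.inl ⟨hx, hxC⟩
    · exact Or.inr ⟨Q.mul_mem hs hx, h.mul s (hQ hs) x (hQ hx) hsC hxC⟩
  refine ⟨hdec, ?_⟩
  have hs2 : s ^ 2 = 1 := h.sq s (hQ hs) hsC
  have hs1 : s ≠ 1 := fun h1 => hsC (h1 ▸ C.one_mem)
  have hso : orderOf s = 2 := orderOf_eq_prime hs2 hs1
  have hnorm : Subgroup.zpowers s ≤ Subgroup.normalizer ((Q ⊓ C : Subgroup X) : Set X) := by
    rw [Subgroup.zpowers_le]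
    apply Cfsg.Agent.Lib.Helper1.mem_normalizer_of_conj_mem
    rintro u ⟨hu1, hu2⟩
    exact ⟨Q.mul_mem (Q.mul_mem hs hu1) (Q.inv_mem hs),
      (Subgroup.mem_normalizer_iff.mp (h.le_normalizer (hQ hs)) u).mp hu2⟩
  have h1 := card_mul_card_eq_of_le_normalizer (Subgroup.zpowers s) (Q ⊓ C) hnorm
  have hsup : Subgroup.zpowers s ⊔ (Q ⊓ C) = Q := by
    apply le_antisymm (sup_le (Subgroup.zpowers_le.mpr hs) inf_le_left)
    intro x hx
    rcases hdec x hx with h2 | h2
    · exact Subgroup.mem_sup_right h2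
    · have : x = s⁻¹ * (s * x) := by group
      rw [this]
      exact Subgroup.mul_mem _ (Subgroup.mem_sup_left (Subgroup.inv_mem _ (Subgroup.mem_zpowers s)))
        (Subgroup.mem_sup_right h2)
  have hinf : Nat.card (Subgroup.zpowers s ⊓ (Q ⊓ C) : Subgroup X) = 1 := by
    have hd : Nat.card (Subgroup.zpowers s ⊓ (Q ⊓ C) : Subgroup X) ∣ 2 := by
      rw [← hso, ← Nat.card_zpowers]
      exact Subgroup.card_dvd_of_le inf_le_left
    rcases (Nat.dvd_prime Nat.prime_two).mp hd with h2 | h2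
    · exact h2
    · exfalso
      apply hsC
      have h3 : Subgroup.zpowers s ⊓ (Q ⊓ C) = Subgroup.zpowers s :=
        Subgroup.eq_of_le_of_card_ge inf_le_left (by rw [h2, Nat.card_zpowers, hso])
      have h4 : s ∈ Subgroup.zpowers s ⊓ (Q ⊓ C) := by rw [h3]; exact Subgroup.mem_zpowers s
      exact h4.2.2
  rw [hsup, hinf, mul_one, Nat.card_zpowers, hso] at h1
  exact h1.symm

theorem card_le_four_of_sq [Finite X] (h : DihLike S C) {E : Subgroup X} (hE : E ≤ S)
    (hsq : ∀ x ∈ E, x ^ 2 = 1) : Nat.card E ≤ 4 := by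
  have := h.cyc
  have hcyc : IsCyclic (E ⊓ C : Subgroup X) := Subgroup.isCyclic_of_le (inf_le_right : E ⊓ C ≤ C)
  obtain ⟨c0, hc0⟩ := (Subgroup.isCyclic_iff_exists_zpowers_eq_top _).mp hcyc
  have hc0E : c0 ∈ E ⊓ C := hc0 ▸ Subgroup.mem_zpowers c0
  have h0 : Nat.card (E ⊓ C : Subgroup X) ≤ 2 := by
    rw [← hc0, Nat.card_zpowers]
    exact Nat.le_of_dvd (by norm_num) (orderOf_dvd_of_pow_eq_one (hsq c0 hc0E.1))
  by_cases hEC : E ≤ C
  · rw [inf_eq_left.mpr hEC] at h0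
    omega
  · obtain ⟨s, hs, hsC⟩ := SetLike.not_le_iff_exists.mp hEC
    have := (h.card_eq_two_mul hE hs hsC).2
    omega

theorem centralizes_or_klein [Finite X] (h : DihLike S C) (hS : IsPGroup 2 S) {Q : Subgroup X}
    (hQ : Q ≤ S) {g : X} (hg : g ∈ Subgroup.normalizer (Q : Set X)) (hodd : (orderOf g).Coprime 2) :
    g ∈ Subgroup.centralizer (Q : Set X) ∨ IsKleinFour Q := by
  have : Fact (Nat.Prime 2) := ⟨Nat.prime_two⟩
  have hcycC := h.cyc
  by_cases hQC : Q ≤ C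
  · left
    have : IsCyclic Q := Subgroup.isCyclic_of_le hQC
    obtain ⟨k, hk⟩ := (hS.to_le hQ).exists_card_eq
    exact odd_centralizes_cyclic_two hk hg hodd
  obtain ⟨s, hs, hsC⟩ := SetLike.not_le_iff_exists.mp hQC
  obtain ⟨hdec, hcard⟩ := h.card_eq_two_mul hQ hs hsC
  have hcyc : IsCyclic (Q ⊓ C : Subgroup X) := Subgroup.isCyclic_of_le (inf_le_right : Q ⊓ C ≤ C)
  obtain ⟨c0, hc0⟩ := (Subgroup.isCyclic_iff_exists_zpowers_eq_top _).mp hcyc
  have hc0Q : c0 ∈ Q ⊓ C := hc0 ▸ Subgroup.mem_zpowers c0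
  by_cases hc2 : c0 ^ 2 = 1
  · have hsq : ∀ x ∈ Q, x ^ 2 = 1 := by
      intro x hx
      by_cases hxC : x ∈ C
      · have hx0 : x ∈ Subgroup.zpowers c0 := hc0 ▸ (⟨hx, hxC⟩ : x ∈ Q ⊓ C)
        obtain ⟨k, rfl⟩ := Subgroup.mem_zpowers_iff.mp hx0
        rw [← zpow_natCast, ← zpow_mul, mul_comm, zpow_mul, zpow_natCast, hc2, one_zpow]
      · exact h.sq x (hQ hx) hxC
    rw [← hc0, Nat.card_zpowers] at hcard
    rcases (Nat.dvd_prime Nat.prime_two).mp (orderOf_dvd_of_pow_eq_one hc2) with h1 | h1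
    · left
      rw [h1] at hcard
      have : IsCyclic Q := isCyclic_of_prime_card (p := 2) (by omega)
      exact odd_centralizes_cyclic_two (k := 1) (by omega) hg hodd
    · right
      rw [h1] at hcard
      refine ⟨by omega, ?_⟩
      apply Nat.dvd_antisymm
      · apply Monoid.exponent_dvd_of_forall_pow_eq_one
        intro x
        exact Subtype.ext (by simpa using hsq x x.2)
      · have hs1 : s ≠ 1 := fun h1 => hsC (h1 ▸ C.one_mem)
        have hso : orderOf (⟨s, hs⟩ : Q) = 2 := by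
          rw [Subgroup.orderOf_mk]
          exact orderOf_eq_prime (hsq s hs) hs1
        rw [← hso]
        exact Monoid.order_dvd_exponent _
  · left
    have hconjQ : ∀ x ∈ Q, g * x * g⁻¹ ∈ Q := fun x hx => (Subgroup.mem_normalizer_iff.mp hg x).mp hx
    have hgc0 : g * c0 * g⁻¹ ∈ Q ⊓ C := by
      refine ⟨hconjQ c0 hc0Q.1, ?_⟩
      by_contra hcon
      have h1 := h.sq _ (hQ (hconjQ c0 hc0Q.1)) hcon
      rw [conj_pow] at h1
      apply hc2
      have h2 : c0 ^ 2 = g⁻¹ * (g * c0 ^ 2 * g⁻¹) * g := by group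
      rw [h2, h1]; group
    have hgN0 : g ∈ Subgroup.normalizer ((Q ⊓ C : Subgroup X) : Set X) := by
      apply Cfsg.Agent.Lib.Helper1.mem_normalizer_of_conj_mem
      intro u hu
      rw [← hc0] at hu
      obtain ⟨k, rfl⟩ := Subgroup.mem_zpowers_iff.mp hu
      rw [← conj_zpow]
      exact Subgroup.zpow_mem _ hgc0 k
    obtain ⟨j, hj⟩ := (hS.to_le (inf_le_left.trans hQ : Q ⊓ C ≤ S)).exists_card_eq
    have hgC0 := odd_centralizes_cyclic_two hj hgN0 hodd
    rw [Subgroup.mem_centralizer_iff] at hgC0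
    have hz : g * s * g⁻¹ * s⁻¹ ∈ Q ⊓ C := by
      refine ⟨Q.mul_mem (hconjQ s hs) (Q.inv_mem hs), ?_⟩
      apply h.mul _ (hQ (hconjQ s hs)) _ (S.inv_mem (hQ hs))
      · intro hcon
        apply hsC
        have h1 : g * s * g⁻¹ ∈ Q ⊓ C := ⟨hconjQ s hs, hcon⟩
        exact ((Subgroup.mem_normalizer_iff.mp hgN0 s).mpr h1).2
      · intro hcon
        exact hsC (by simpa using C.inv_mem hcon)
    have hgs : Commute g s := by
      apply commute_of_stabilizes (p := 2 ^ j) (Nat.Coprime.pow_right j hodd)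
      · have := pow_card_eq_one' (x := (⟨_, hz⟩ : (Q ⊓ C : Subgroup X)))
        rw [hj] at this
        simpa using congrArg Subtype.val this
      · exact (hgC0 _ hz).symm
    rw [Subgroup.mem_centralizer_iff]
    intro x hx
    rcases hdec x hx with h1 | h1
    · exact hgC0 x h1
    · have h2 : Commute g (s * x) := (hgC0 _ h1).symm
      have h3 : Commute g x := by
        have : x = s⁻¹ * (s * x) := by group
        rw [this]
        exact (hgs.inv_right).mul_right h2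
      exact h3.eq.symm

end DihLike

end Cfsg.Agent.Lib.Helper4
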