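import Mathlib
import Cfsg.Agent.Lib.Helper4.Frat
import Cfsg.Agent.Lib.Helper1.CoprimeSylow

set_option autoImplicit false

namespace Cfsg.Agent.Lib.Helper4

open scoped Pointwise

/-- complements in elementary abelian groups -/
theorem exists_complement_of_elementary {E : Type*} [Group E] [Finite E] {p : ℕ} [Fact p.Prime]
    (hc : ∀ a b : E, a * b = b * a) (he : ∀ a : E, a ^ p = 1) (L : Subgroup E) :
    ∃ W : Subgroup E, W ⊓ L = ⊥ ∧ L ⊔ W = ⊤ := by
  classical
  have hp : p.Prime := Fact.out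
  obtain ⟨W, hW, hmax⟩ : ∃ W : Subgroup E, W ⊓ L = ⊥ ∧
      ∀ B : Subgroup E, B ⊓ L = ⊥ → W ≤ B → B = W := by
    have hne : {W : Subgroup E | W ⊓ L = ⊥}.Nonempty := ⟨⊥, by simp⟩
    obtain ⟨W, hW, hWm⟩ := (Set.toFinite {W : Subgroup E | W ⊓ L = ⊥}).exists_maximal hne
    exact ⟨W, hW, fun B hB hWB => le_antisymm (hWm hB hWB) hWB⟩
  refine ⟨W, hW, ?_⟩
  by_contra hne
  obtain ⟨x, hx⟩ : ∃ x : E, x ∉ L ⊔ W := by
    by_contra h
    push Not at h
    exact hne (eq_top_iff.mpr fun y _ => h y)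
  haveI : W.Normal := ⟨fun n hn g => by rw [hc g n, mul_inv_cancel_right]; exact hn⟩
  have h1 : (W ⊔ Subgroup.zpowers x) ⊓ L = ⊥ := by
    rw [eq_bot_iff]
    rintro y ⟨hy1, hy2⟩
    have hy1' : y ∈ W ⊔ Subgroup.zpowers x := hy1
    have hy2 : y ∈ L := hy2
    rw [← SetLike.mem_coe, Subgroup.normal_mul] at hy1'
    obtain ⟨w, hw, z, hz, hwz⟩ := hy1'
    have hwz : w * z = y := hwz
    subst hwz
    obtain ⟨n, rfl⟩ := Subgroup.mem_zpowers_iff.mp hz
    by_cases hn : (p : ℤ) ∣ n
    · obtain ⟨m, rfl⟩ := hn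
      have : x ^ ((p : ℤ) * m) = 1 := by
        rw [zpow_mul, zpow_natCast, he, one_zpow]
      rw [this, mul_one] at hy2 ⊢
      rw [← hW]
      exact ⟨hw, hy2⟩
    · exfalso
      apply hx
      have hcop : IsCoprime n (p : ℤ) := by
        rw [isCoprime_comm]
        exact (Nat.prime_iff_prime_int.mp hp).coprime_iff_not_dvd.mpr hn
      obtain ⟨a, b, hab⟩ := hcop
      have hxn : x ^ n ∈ L ⊔ W := by
        have : x ^ n = w⁻¹ * (w * x ^ n) := by group
        rw [this]
        exact (L ⊔ W).mul_mem ((L ⊔ W).inv_mem (Subgroup.mem_sup_right hw))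
          (Subgroup.mem_sup_left hy2)
      have : x = (x ^ n) ^ a := by
        have h3 : x ^ (a * n + b * p) = x := by rw [hab, zpow_one]
        rw [zpow_add, mul_comm b, zpow_mul x (p : ℤ) b, zpow_natCast, he, one_zpow, mul_one,
          mul_comm a, zpow_mul] at h3
        exact h3.symm
      rw [this]
      exact (L ⊔ W).zpow_mem hxn a
  have h2 := hmax _ h1 le_sup_left
  apply hx
  apply Subgroup.mem_sup_right
  rw [← h2]
  exact Subgroup.mem_sup_right (Subgroup.mem_zpowers x)

/-- Gaschütz with the complement given inside the subgroup type. -/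
theorem exists_complement_of_subgroup_complement {G : Type*} [Group G] [Finite G]
    (K U : Subgroup G) [K.Normal]
    [IsMulCommutative K] (hKU : K ≤ U) (hcop : (Nat.card K).Coprime U.index)
    (hex : ∃ A' : Subgroup U, A' ⊓ K.subgroupOf U = ⊥ ∧ K.subgroupOf U ⊔ A' = ⊤) :
    ∃ X : Subgroup G, Subgroup.IsComplement' K X := by
  obtain ⟨A', hA1, hA2⟩ := hex
  have hAU : A'.map U.subtype ≤ U := Subgroup.map_subtype_le _
  have h1 : A'.map U.subtype ⊓ K = ⊥ := by
    rw [eq_bot_iff]
    rintro x ⟨⟨a, ha, rfl⟩, hxK⟩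
    have : a ∈ A' ⊓ K.subgroupOf U := ⟨ha, Subgroup.mem_subgroupOf.mpr hxK⟩
    rw [hA1, Subgroup.mem_bot] at this
    rw [this]; simp
  have h2 : K ⊔ A'.map U.subtype = U := by
    apply le_antisymm (sup_le hKU hAU)
    intro x hx
    have : (⟨x, hx⟩ : U) ∈ K.subgroupOf U ⊔ A' := by rw [hA2]; trivial
    rw [← SetLike.mem_coe, Subgroup.normal_mul] at this
    obtain ⟨k, hk, a, ha, hka⟩ := this
    have e : x = (k : G) * (a : G) := by
      have := congrArg Subtype.val hka
      exact this.symm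
    rw [e]
    exact Subgroup.mul_mem_sup (Subgroup.mem_subgroupOf.mp hk) ⟨a, ha, rfl⟩
  exact Cfsg.Agent.Lib.Helper1.gaschutz_exists K U (A'.map U.subtype) hKU hcop hAU h1 h2

section ext

variable {A G : Type*} [Group A] [Finite A] [Group G] [Finite G] [MulDistribMulAction A G]

omit [Finite A] [Finite G] in
theorem inl_smul_eq (a : A) (g : G) :
    (SemidirectProduct.inl (a • g) : G ⋊[MulDistribMulAction.toMulAut A G] A) =
      SemidirectProduct.inr a * SemidirectProduct.inl g * (SemidirectProduct.inr a)⁻¹ := by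
  have := SemidirectProduct.inl_aut (φ := MulDistribMulAction.toMulAut A G) a g
  rw [map_inv] at this
  exact this

/-- external coprime action: an invariant "Sylow" subgroup -/
theorem exists_invariant_sylow_ext (hcop : (Nat.card A).Coprime (Nat.card G))
    (hsol : Group.IsSolvable A ∨ Group.IsSolvable G) (p : ℕ) [Fact p.Prime] :
    ∃ P : Subgroup G, IsPGroup p P ∧ ¬ p ∣ P.index ∧ ∀ a : A, ∀ x ∈ P, a • x ∈ P := by
  classical
  let φ := MulDistribMulAction.toMulAut A G
  let inl : G →* G ⋊[φ] A := SemidirectProduct.inl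
  let inr : A →* G ⋊[φ] A := SemidirectProduct.inr
  have hinl : Function.Injective inl := SemidirectProduct.inl_injective
  have hinr : Function.Injective inr := SemidirectProduct.inr_injective
  haveI : Finite (G ⋊[φ] A) := Finite.of_equiv _ SemidirectProduct.equivProd.symm
  haveI hKn : inl.range.Normal := by
    have : inl.range = (SemidirectProduct.rightHom : G ⋊[φ] A →* A).ker :=
      SemidirectProduct.range_inl_eq_ker_rightHom
    rw [this]; infer_instance
  have hcA : Nat.card inr.range = Nat.card A :=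
    (Nat.card_congr (MonoidHom.ofInjective hinr).toEquiv).symm
  have hcK : Nat.card inl.range = Nat.card G :=
    (Nat.card_congr (MonoidHom.ofInjective hinl).toEquiv).symm
  obtain ⟨P', hP'⟩ := Cfsg.Agent.Lib.Helper1.coprime_exists_invariant_sylow inr.range inl.range
    (by rw [Subgroup.normalizer_eq_top_iff.mpr hKn]; exact le_top)
    (by rw [hcA, hcK]; exact hcop)
    (hsol.imp
      (fun h => by
        haveI := h
        exact Group.isSolvable_of_surjective (f := (MonoidHom.ofInjective hinr).toMonoidHom)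
          (MonoidHom.ofInjective hinr).surjective)
      (fun h => by
        haveI := h
        exact Group.isSolvable_of_surjective (f := (MonoidHom.ofInjective hinl).toMonoidHom)
          (MonoidHom.ofInjective hinl).surjective)) p
  refine ⟨(Cfsg.Agent.Lib.Helper1.sylImg P').comap inl, ?_, ?_, ?_⟩
  · exact (Cfsg.Agent.Lib.Helper1.sylImg_isPGroup P').comap_of_injective inl hinl
  · rw [Subgroup.index_comap]
    have : (Cfsg.Agent.Lib.Helper1.sylImg P').relIndex inl.range = (P' : Subgroup inl.range).index := by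
      rw [Subgroup.relIndex]
      congr 1
      ext y
      rw [Subgroup.mem_subgroupOf]
      constructor
      · rintro ⟨z, hz, hzy⟩
        have : z = y := Subtype.ext hzy
        rwa [← this]
      · intro hy
        exact ⟨y, hy, rfl⟩
    rw [this]
    exact P'.not_dvd_index
  · intro a x hx
    rw [Subgroup.mem_comap] at hx ⊢
    have h1 : inl (a • x) = inr a * inl x * (inr a)⁻¹ := inl_smul_eq a x
    rw [h1]
    exact (Subgroup.mem_normalizer_iff.mp (hP' ⟨a, rfl⟩) _).mp hx

/-- external coprime action: Maschke for an elementary abelian quotient `G/Φ` -/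
theorem exists_invariant_complement_ext (hcop : (Nat.card A).Coprime (Nat.card G))
    {p : ℕ} [Fact p.Prime] (Φ L : Subgroup G) (hΦL : Φ ≤ L)
    (hΦinv : ∀ a : A, ∀ x ∈ Φ, a • x ∈ Φ) (hLinv : ∀ a : A, ∀ x ∈ L, a • x ∈ L)
    (hab : ∀ x y : G, x * y * x⁻¹ * y⁻¹ ∈ Φ) (hexp : ∀ x : G, x ^ p ∈ Φ) :
    ∃ W : Subgroup G, Φ ≤ W ∧ (∀ a : A, ∀ x ∈ W, a • x ∈ W) ∧ W ⊓ L = Φ ∧ L ⊔ W = ⊤ := by
  classical
  let φ := MulDistribMulAction.toMulAut A G
  let inl : G →* G ⋊[φ] A := SemidirectProduct.inl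
  let inr : A →* G ⋊[φ] A := SemidirectProduct.inr
  have hinl : Function.Injective inl := SemidirectProduct.inl_injective
  haveI : Finite (G ⋊[φ] A) := Finite.of_equiv _ SemidirectProduct.equivProd.symm
  have hconjL : ∀ (M : Subgroup G), Φ ≤ M → ∀ g : G, ∀ y ∈ M, g * y * g⁻¹ ∈ M := by
    intro M hM g y hy
    have : g * y * g⁻¹ = (g * y * g⁻¹ * y⁻¹) * y := by group
    rw [this]
    exact M.mul_mem (hM (hab g y)) hy
  have hconj : ∀ (γ : G ⋊[φ] A) (y : G),
      γ * inl y * γ⁻¹ = inl (γ.left * (γ.right • y) * γ.left⁻¹) := by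
    intro γ y
    have h1 : inl (γ.right • y) = inr γ.right * inl y * (inr γ.right)⁻¹ := inl_smul_eq γ.right y
    have h2 : γ = inl γ.left * inr γ.right := (SemidirectProduct.inl_left_mul_inr_right γ).symm
    rw [map_mul, map_mul, h1, map_inv]
    conv_lhs => rw [h2]
    group
  haveI hΦn : (Φ.map inl).Normal := by
    constructor
    rintro _ ⟨y, hy, rfl⟩ γ
    rw [hconj]
    exact ⟨_, hconjL Φ le_rfl _ _ (hΦinv _ _ hy), rfl⟩
  let mk := QuotientGroup.mk' (Φ.map inl)
  let j : G →* (G ⋊[φ] A) ⧸ (Φ.map inl) := mk.comp inl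
  have hj1 : ∀ x : G, j x = 1 ↔ x ∈ Φ := by
    intro x
    show mk (inl x) = 1 ↔ _
    rw [QuotientGroup.mk'_apply, QuotientGroup.eq_one_iff]
    constructor
    · rintro ⟨y, hy, hyx⟩
      rwa [← hinl hyx]
    · intro hx
      exact ⟨x, hx, rfl⟩
  have hjcomm : ∀ x y : G, j x * j y = j y * j x := by
    intro x y
    have h1 : j (x * y * x⁻¹ * y⁻¹) = 1 := (hj1 _).mpr (hab x y)
    rw [map_mul, map_mul, map_mul, map_inv, map_inv] at h1
    have h2 : j x * j y = (j x * j y * (j x)⁻¹ * (j y)⁻¹) * (j y * j x) := by group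
    rw [h2, h1, one_mul]
  have hjconj : ∀ (γ : G ⋊[φ] A) (y : G),
      mk γ * j y * (mk γ)⁻¹ = j (γ.left * (γ.right • y) * γ.left⁻¹) := by
    intro γ y
    show mk γ * mk (inl y) * (mk γ)⁻¹ = mk (inl _)
    rw [← hconj, map_mul, map_mul, map_inv]
  haveI hKn : (L.map j).Normal := by
    constructor
    rintro _ ⟨y, hy, rfl⟩ γ'
    obtain ⟨γ, rfl⟩ := QuotientGroup.mk'_surjective _ γ'
    have := hjconj γ y
    rw [show (QuotientGroup.mk' (Φ.map inl)) γ = mk γ from rfl, this]
    exact ⟨_, hconjL L hΦL _ _ (hLinv _ _ hy), rfl⟩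
  haveI : IsMulCommutative (L.map j) := by
    refine ⟨⟨?_⟩⟩
    rintro ⟨_, a, _, rfl⟩ ⟨_, b, _, rfl⟩
    exact Subtype.ext (hjcomm a b)
  have hKU : L.map j ≤ j.range := by
    rintro _ ⟨y, _, rfl⟩
    exact ⟨y, rfl⟩
  have hidx : j.range.index ∣ Nat.card A := by
    have h1 : j.range = inl.range.map mk := by
      rw [MonoidHom.range_eq_map, MonoidHom.range_eq_map, ← Subgroup.map_map]
    rw [h1]
    have h2 : (inl.range.map mk).index ∣ inl.range.index :=
      Subgroup.index_map_dvd _ (QuotientGroup.mk'_surjective _)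
    have h3 : inl.range.index = Nat.card A := by
      have : inl.range = (SemidirectProduct.rightHom : G ⋊[φ] A →* A).ker :=
        SemidirectProduct.range_inl_eq_ker_rightHom
      rw [this, Subgroup.index_ker, MonoidHom.range_eq_top.mpr SemidirectProduct.rightHom_surjective]
      exact Nat.card_congr Subgroup.topEquiv.toEquiv
    rwa [h3] at h2
  have hcop' : (Nat.card (L.map j)).Coprime j.range.index := by
    have h1 : Nat.card (L.map j) ∣ Nat.card G :=
      (Subgroup.card_map_dvd _ _).trans (Subgroup.card_subgroup_dvd_card L)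
    exact (Nat.Coprime.of_dvd hidx h1 hcop).symm
  obtain ⟨X, hX⟩ := exists_complement_of_subgroup_complement (L.map j) j.range hKU hcop'
    (exists_complement_of_elementary (p := p)
      (by
        rintro ⟨_, a, rfl⟩ ⟨_, b, rfl⟩
        exact Subtype.ext (hjcomm a b))
      (by
        rintro ⟨_, a, rfl⟩
        apply Subtype.ext
        show (j a) ^ p = 1
        rw [← map_pow]
        exact (hj1 _).mpr (hexp a)) _)
  have hdec : ∀ γ' : (G ⋊[φ] A) ⧸ (Φ.map inl), ∃ l ∈ L, ∃ x ∈ X, γ' = j l * x := by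
    intro γ'
    have : γ' ∈ L.map j ⊔ X := by rw [hX.sup_eq_top]; trivial
    rw [← SetLike.mem_coe, Subgroup.normal_mul] at this
    obtain ⟨_, ⟨l, hl, rfl⟩, x, hx, h⟩ := this
    exact ⟨l, hl, x, hx, h.symm⟩
  refine ⟨X.comap j, ?_, ?_, ?_, ?_⟩
  · intro x hx
    rw [Subgroup.mem_comap, (hj1 x).mpr hx]
    exact X.one_mem
  · intro a g hg
    rw [Subgroup.mem_comap] at hg ⊢
    obtain ⟨l, hl, x, hx, hlx⟩ := hdec (mk (inr a))
    have h1 : mk (inr a) * j g * (mk (inr a))⁻¹ = j (a • g) := by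
      rw [hjconj]
      simp [inr]
    -- `u = x (j g) x⁻¹ ∈ X`
    have h2 : x * j g * x⁻¹ ∈ X := X.mul_mem (X.mul_mem hx hg) (X.inv_mem hx)
    have h3 : x * j g * x⁻¹ = (j l)⁻¹ * j (a • g) * j l := by
      rw [← h1, hlx]; group
    have h4 : (j l)⁻¹ * j (a • g) * j l = j (a • g) := by
      rw [mul_assoc, hjcomm (a • g) l, inv_mul_cancel_left]
    rw [← h4, ← h3]
    exact h2
  · apply le_antisymm
    · rintro x ⟨hx1, hx2⟩
      have hx1 : j x ∈ X := hx1
      have : j x ∈ L.map j ⊓ X := ⟨⟨x, hx2, rfl⟩, hx1⟩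
      rw [hX.disjoint.eq_bot, Subgroup.mem_bot] at this
      exact (hj1 x).mp this
    · intro x hx
      refine ⟨?_, hΦL hx⟩
      show j x ∈ X
      rw [(hj1 x).mpr hx]
      exact X.one_mem
  · rw [eq_top_iff]
    intro g _
    obtain ⟨l, hl, x, hx, hlx⟩ := hdec (j g)
    have h1 : j (l⁻¹ * g) = x := by
      rw [map_mul, map_inv, hlx, inv_mul_cancel_left]
    have h2 : g = l * (l⁻¹ * g) := by group
    rw [h2]
    exact Subgroup.mul_mem_sup hl (by rw [Subgroup.mem_comap, h1]; exact hx)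

end ext

end Cfsg.Agent.Lib.Helper4
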